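import Cfsg.Agent.H441.RG.CentTF
import Cfsg.Agent.H864.TD.Defs
import Cfsg.Agent.H188.TD.NclA2
import Cfsg.Agent.H720.TwFr
import Cfsg.Agent.S1025

/-!
# S3509, `³D₄(q)`: mixed families, box T4 (helper39)

`ncl_of` : the normal closure of an element `u` of order `r` in `C(s)` contains a long root element or an element of a new
prime order; from the enumeration of the root systems of the centralizers (T4a), the case of an orbit of length three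
(`Three`) and `Lrg` (root groups of `θ`-fixed roots are long root groups).
-/

set_option autoImplicit false
set_option linter.unusedSectionVars false
open Cfsg

namespace Cfsg.Agent.H39.TD

open CoxeterSystem Cfsg.Lie Cfsg.Lie.ChevalleyDatum Cfsg.Agent.H873.RG Cfsg.Agent.H316.U6
open Cfsg.Agent.ChevalleyStructure Cfsg.Agent.ChevalleyStructure.CoxeterGeom
  Cfsg.Agent.ChevalleyStructure.CoxeterGeomTypes Cfsg.Agent.Nodes Cfsg.Agent.Nodes.RGDChev Cfsg.Agent.Nodes.BNOf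
  Cfsg.Agent.KFacts.RgdField Cfsg.Agent.KFacts.RgdChevCoord
open Cfsg.Agent.Tits.Roots
open Cfsg.Agent.BpExc Cfsg.Agent.BpExc.TorCent Cfsg.Agent.BpExc.Pair Cfsg.Agent.BpExc.LangFr Cfsg.Agent.H469.Exc
open Cfsg.Agent.BpExc.Fr Cfsg.Agent.BpExc.Tow
open Cfsg.Agent.H169.RG Cfsg.Agent.H694.RG Cfsg.Agent.H864.TD Cfsg.Agent.H28.RG Cfsg.Agent.H441.RG
open Cfsg.Agent.H720.TwFr (permE rho4)
open scoped commutatorElement

/-- products of two subgroups, one normalising the other -/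
theorem mem_sup_norm {Y : Type*} [Group Y] {A B : Subgroup Y} (h : ∀ a ∈ A, ∀ b ∈ B, a * b * a⁻¹ ∈ B) {x : Y}
    (hx : x ∈ A ⊔ B) : ∃ a ∈ A, ∃ b ∈ B, x = a * b := by
  let S : Subgroup Y :=
    { carrier := {x | ∃ a ∈ A, ∃ b ∈ B, x = a * b}
      one_mem' := ⟨1, A.one_mem, 1, B.one_mem, by rw [mul_one]⟩
      mul_mem' := by
        rintro _ _ ⟨a, ha, b, hb, rfl⟩ ⟨c, hc, d, hd, rfl⟩
        refine ⟨a * c, A.mul_mem ha hc, c⁻¹ * b * c * d, B.mul_mem ?_ hd, by group⟩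
        have h1 := h c⁻¹ (A.inv_mem hc) b hb
        rwa [inv_inv] at h1
      inv_mem' := by
        rintro _ ⟨a, ha, b, hb, rfl⟩
        exact ⟨a⁻¹, A.inv_mem ha, a * b⁻¹ * a⁻¹, h a ha _ (B.inv_mem hb), by group⟩ }
  have h1 : A ⊔ B ≤ S := sup_le (fun a ha => ⟨a, ha, 1, B.one_mem, by rw [mul_one]⟩)
    (fun b hb => ⟨1, A.one_mem, b, hb, by rw [one_mul]⟩)
  exact h1 hx

section

variable {r q : ℕ} [hr : Fact r.Prime] {K₀ : Type} [Group K₀] [Finite K₀] (m : MData RGDTwD4.hp r q K₀)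

/-- strongly orthogonal roots -/
def SOrth (a b : Fin 4 → ℤ) : Prop :=
  ¬ IsRoot coxeterD4.toCoxeterSystem RGDTwD4.hp.isCartan (a + b) ∧ ¬ IsRoot coxeterD4.toCoxeterSystem RGDTwD4.hp.isCartan (a - b) ∧ a ≠ b

/-- BOX T4a -/
def T4a : Prop := ∀ {s : Y4 r} (_ : s ≠ 1) (f : TorForm m s) {Φ : Set (Fin 4 → ℤ)}
    (_ : Φ = Sx coxeterD4.toCoxeterSystem RGDTwD4.hp.isCartan (ch RGDTwD4.hp) f.t),
    Φ = ∅ ∨
    (∃ b, 0 ≤ b ∧ f.θ b = b ∧ ∀ x, x ∈ Φ ↔ x = b ∨ x = -b) ∨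
    (∃ b, 0 ≤ b ∧ f.θ (f.θ (f.θ b)) = b ∧ SOrth b (f.θ b) ∧ SOrth (f.θ b) (f.θ (f.θ b)) ∧ SOrth b (f.θ (f.θ b)) ∧
      (∀ v, ∃ c₀ c₁ c₂ : ℤ, f.θ (f.θ v) - v = c₀ • b + c₁ • f.θ b + c₂ • f.θ (f.θ b)) ∧
      ((∀ x, x ∈ Φ ↔ x = b ∨ x = f.θ b ∨ x = f.θ (f.θ b) ∨ x = -b ∨ x = -f.θ b ∨ x = -f.θ (f.θ b)) ∨
        ∃ c, 0 ≤ c ∧ f.θ c = c ∧ SOrth b c ∧ SOrth (f.θ b) c ∧ SOrth (f.θ (f.θ b)) c ∧
          ∀ x, x ∈ Φ ↔ x = c ∨ x = -c ∨ x = b ∨ x = f.θ b ∨ x = f.θ (f.θ b) ∨ x = -b ∨ x = -f.θ b ∨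
            x = -f.θ (f.θ b))) ∨
    (∃ a b, 0 ≤ a ∧ 0 ≤ b ∧ IsRoot coxeterD4.toCoxeterSystem RGDTwD4.hp.isCartan (a + b) ∧
      ((f.θ a = a ∧ f.θ b = b) ∨ (f.θ a = b ∧ f.θ b = a)) ∧
      ∀ x, x ∈ Φ ↔ x = a ∨ x = b ∨ x = a + b ∨ x = -a ∨ x = -b ∨ x = -(a + b))

/-- the root groups of `θ`-fixed roots consist of long root elements -/
def Lrg : Prop := ∀ {s : Y4 r} (f : TorForm m s) {b : Fin 4 → ℤ}
  (_ : IsRoot coxeterD4.toCoxeterSystem RGDTwD4.hp.isCartan b) (_ : f.θ b = b) {x : Y4 r}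
  (_ : x ∈ XX chevD4 4 (KK r) b) (_ : f.α x = x) (_ : x ≠ 1), LR m (f.z * x * f.z⁻¹)

/-- the case of an orbit of length three -/
def Three : Prop := ∀ {s : Y4 r} (_ : (orderOf s).Coprime r) (f : TorForm m s) {b : Fin 4 → ℤ}
  (_ : IsRoot coxeterD4.toCoxeterSystem RGDTwD4.hp.isCartan b) (_ : f.θ (f.θ (f.θ b)) = b)
  (_ : SOrth b (f.θ b)) (_ : SOrth (f.θ b) (f.θ (f.θ b))) (_ : SOrth b (f.θ (f.θ b)))
  (_ : ∀ v, ∃ c₀ c₁ c₂ : ℤ, f.θ (f.θ v) - v = c₀ • b + c₁ • f.θ b + c₂ • f.θ (f.θ b))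
  (_ : b ∈ Sx coxeterD4.toCoxeterSystem RGDTwD4.hp.isCartan (ch RGDTwD4.hp) f.t)
  {x₀ x₁ x₂ y : Y4 r} (_ : x₀ ∈ XX chevD4 4 (KK r) b) (_ : x₁ ∈ XX chevD4 4 (KK r) (f.θ b))
  (_ : x₂ ∈ XX chevD4 4 (KK r) (f.θ (f.θ b)))
  (_ : y = 1 ∨ ∃ c, IsRoot coxeterD4.toCoxeterSystem RGDTwD4.hp.isCartan c ∧ f.θ c = c ∧ SOrth b c ∧ SOrth (f.θ b) c ∧
    SOrth (f.θ (f.θ b)) c ∧ y ∈ XX chevD4 4 (KK r) c)
  (_ : f.α (x₀ * x₁ * x₂ * y) = x₀ * x₁ * x₂ * y) (_ : x₀ * x₁ * x₂ ≠ 1),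
  ∃ w ∈ ncl m s (f.z * (x₀ * x₁ * x₂ * y) * f.z⁻¹), w ≠ 1 ∧ ∃ t : ℕ, t.Prime ∧ t ≠ r ∧ w ^ t = 1 ∧ ¬ t ∣ orderOf s

theorem ncl_conj {s u c w : Y4 r} (hc : m.σ c = c) (hcs : c * s = s * c) (hw : w ∈ ncl m s u) :
    c * w * c⁻¹ ∈ ncl m s u := by
  have h : ncl m s u ≤ (ncl m s u).comap (MulAut.conj c).toMonoidHom := by
    conv_lhs => rw [ncl]
    rw [Subgroup.closure_le]
    rintro _ ⟨e, he, hes, rfl⟩
    refine Subgroup.subset_closure ⟨c * e, by rw [map_mul, hc, he], ?_, ?_⟩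
    · rw [mul_assoc, hes, ← mul_assoc, hcs, mul_assoc]
    · show c * (e * u * e⁻¹) * c⁻¹ = _
      group
  exact h hw

theorem ncl_self (s u : Y4 r) : u ∈ ncl m s u := Subgroup.subset_closure ⟨1, map_one _, by rw [one_mul, mul_one], by group⟩

theorem ncl_le {s u v : Y4 r} (hv : v ∈ ncl m s u) : ncl m s v ≤ ncl m s u := by
  conv_lhs => rw [ncl]
  rw [Subgroup.closure_le]
  rintro _ ⟨e, he, hes, rfl⟩
  exact ncl_conj m he hes hv

theorem tabC : (List.range 24).all (fun a => (List.range 24).all fun b =>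
    Cfsg.Agent.H188.TD.isR (vec chevD4 4 a + vec chevD4 4 b) || Cfsg.Agent.H188.TD.isR (vec chevD4 4 a - vec chevD4 4 b) ||
      decide (a = b) || decide (b = chevD4.neg a) || decide (chevD4.commTerms a b = [])) = true := by decide +kernel

/-- strongly orthogonal root groups commute -/
theorem comm_XX {a b : Fin 4 → ℤ} (ha : IsRoot coxeterD4.toCoxeterSystem RGDTwD4.hp.isCartan a)
    (hb : IsRoot coxeterD4.toCoxeterSystem RGDTwD4.hp.isCartan b) (hab : SOrth a b) (hn : b ≠ -a) {x y : Y4 r}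
    (hx : x ∈ XX chevD4 4 (KK r) a) (hy : y ∈ XX chevD4 4 (KK r) b) : x * y = y * x := by
  obtain ⟨t, rfl⟩ := (Cfsg.Agent.H238.ExcCore.mem_XX_iff (k := KK r) RGDTwD4.hp coxeterD4.toCoxeterSystem ha (y := x)).1 hx
  obtain ⟨u, rfl⟩ := (Cfsg.Agent.H238.ExcCore.mem_XX_iff (k := KK r) RGDTwD4.hp coxeterD4.toCoxeterSystem hb (y := y)).1 hy
  obtain ⟨i, hi, rfl⟩ := (isRoot_iff RGDTwD4.hp coxeterD4.toCoxeterSystem a).1 ha
  obtain ⟨j, hj, rfl⟩ := (isRoot_iff RGDTwD4.hp coxeterD4.toCoxeterSystem b).1 hb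
  have e24 : chevD4.nroots = 24 := Cfsg.Agent.H188.TD.nroots_D4
  have hnR : ∀ v, ¬ IsRoot coxeterD4.toCoxeterSystem RGDTwD4.hp.isCartan v → Cfsg.Agent.H188.TD.isR v = false := by
    intro v hv
    by_contra h
    rw [Bool.not_eq_false] at h
    apply hv
    obtain ⟨c, hc, h1⟩ := (Cfsg.Agent.H188.TD.isR_iff v).1 h
    exact (isRoot_iff RGDTwD4.hp coxeterD4.toCoxeterSystem v).2 ⟨c, hc, h1⟩
  have h1 := (List.all_eq_true.1 ((List.all_eq_true.1 tabC) i (List.mem_range.2 (e24 ▸ hi)))) j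
    (List.mem_range.2 (e24 ▸ hj))
  rw [hnR _ hab.1, hnR _ hab.2.1, Bool.false_or, Bool.false_or] at h1
  have hij : j ≠ i := by
    rintro rfl
    exact hab.2.2 rfl
  have hneg : j ≠ chevD4.neg i := by
    rintro rfl
    exact hn (vec_neg RGDTwD4.hp hi)
  have h2 : chevD4.commTerms i j = [] := by
    rcases Bool.or_eq_true_iff.1 h1 with h2 | h2
    · rcases Bool.or_eq_true_iff.1 h2 with h3 | h3
      · exact absurd (of_decide_eq_true h3).symm hij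
      · exact absurd (of_decide_eq_true h3) hneg
    · exact of_decide_eq_true h2
  have h3 := Cfsg.Agent.S1025.result (F := KK r) chevD4 RGDTwD4.hp.inList i j hi hj hij hneg t u
  have h4 : chevD4.wordMat (KK r) (chevD4.commWord (KK r) i j t u) = 1 := by
    unfold commWord
    rw [h2]
    simp [ChevalleyDatum.wordMat]
  rw [h4, mul_one] at h3
  apply Subtype.ext
  rw [Subgroup.coe_mul, Subgroup.coe_mul, coe_xc RGDTwD4.hp hi, coe_xc RGDTwD4.hp hj]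
  apply Units.ext
  rw [Units.val_mul, Units.val_mul, Elts.coe_xG, Elts.coe_xG]
  exact h3.symm

theorem conj_XX {a b : Fin 4 → ℤ} (ha : IsRoot coxeterD4.toCoxeterSystem RGDTwD4.hp.isCartan a)
    (hb : IsRoot coxeterD4.toCoxeterSystem RGDTwD4.hp.isCartan b)
    (hab : IsRoot coxeterD4.toCoxeterSystem RGDTwD4.hp.isCartan (a + b)) {x y : Y4 r}
    (hx : x ∈ XX chevD4 4 (KK r) a) (hy : y ∈ XX chevD4 4 (KK r) b) :
    (∃ z ∈ XX chevD4 4 (KK r) (a + b), x * y * x⁻¹ = y * z) ∧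
    (∀ z ∈ XX chevD4 4 (KK r) (a + b), x * z = z * x ∧ y * z = z * y) := by
  have mem := fun {v : Fin 4 → ℤ} (hv : IsRoot coxeterD4.toCoxeterSystem RGDTwD4.hp.isCartan v) {y : Y4 r} =>
    Cfsg.Agent.H238.ExcCore.mem_XX_iff (k := KK r) RGDTwD4.hp coxeterD4.toCoxeterSystem hv (y := y)
  have rt := fun {v : Fin 4 → ℤ} (hv : IsRoot coxeterD4.toCoxeterSystem RGDTwD4.hp.isCartan v) =>
    (isRoot_iff RGDTwD4.hp coxeterD4.toCoxeterSystem v).1 hv
  obtain ⟨c, rfl⟩ := (mem ha).1 hx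
  obtain ⟨d, rfl⟩ := (mem hb).1 hy
  have hP := Cfsg.Agent.H188.TD.pr_D4 (by obtain ⟨j, hj, h⟩ := rt ha; exact ⟨j, hj, h⟩)
    (by obtain ⟨j, hj, h⟩ := rt hb; exact ⟨j, hj, h⟩) (by obtain ⟨j, hj, h⟩ := rt hab; exact ⟨j, hj, h⟩)
  have H := Cfsg.Agent.H188.TD.hs_of_pr (k := KK r) RGDTwD4.hp hP
  refine ⟨⟨⁅xc RGDTwD4.hp a c, xc RGDTwD4.hp b d⁆, ?_, ?_⟩, fun z hz => ?_⟩
  · rw [Cfsg.Agent.H46.Gen.xc_br RGDTwD4.hp (k := KK r) hP]
    exact (mem hab).2 ⟨_, rfl⟩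
  · have e := Cfsg.Agent.H46.Gen.xc_br RGDTwD4.hp (k := KK r) hP c d
    have e1 : xc RGDTwD4.hp b d * ⁅xc RGDTwD4.hp a c, xc RGDTwD4.hp b d⁆ =
        ⁅xc RGDTwD4.hp a c, xc RGDTwD4.hp b d⁆ * xc RGDTwD4.hp b d := by
      rw [e]
      exact (H.zb _ _).symm
    rw [e1, commutatorElement_def]
    group
  · obtain ⟨w, rfl⟩ := (mem hab).1 hz
    exact ⟨(H.za _ _).symm, (H.zb _ _).symm⟩

theorem ncl_of (h4a : T4a m) (hL : Lrg m) (h3 : Three m) {s u : Y4 r} (hs : m.σ s = s) (hs1 : s ≠ 1) {d : ℕ}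
    (hd : d.Coprime r) (hsd : s ^ d = 1)
    (hu : m.σ u = u) (hus : u * s = s * u) (hu1 : u ≠ 1) (hur : u ^ r = 1) :
    (∃ v ∈ ncl m s u, LR m v) ∨ ∃ y ∈ ncl m s u, y ≠ 1 ∧ ∃ t : ℕ, t.Prime ∧ t ≠ r ∧ y ^ t = 1 ∧ ¬ t ∣ orderOf s := by
  have hd0 : d ≠ 0 := by
    rintro rfl
    rw [Nat.coprime_zero_left] at hd
    exact hr.out.one_lt.ne' hd
  obtain ⟨f⟩ := exists_torForm m hs hd0 hd hsd
  have hos : (orderOf s).Coprime r := Nat.Coprime.coprime_dvd_left (orderOf_dvd_of_pow_eq_one hsd) hd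
  have D := dfr_torForm f hos
  have := finite_fixC_α f
  obtain ⟨P, hP⟩ := D.sylP (locFin r)
  -- `u` is conjugate to an element of `PK`
  set u1 : ↥(fixC f.α f.t) := f.equiv ⟨u, mem_fixC.2 ⟨hu, hus⟩⟩ with hu1def
  have hu1r : u1 ^ r = 1 := by
    rw [hu1def, ← map_pow]
    have e : (⟨u, mem_fixC.2 ⟨hu, hus⟩⟩ : ↥(fixC m.σ s)) ^ r = 1 := Subtype.ext hur
    rw [e, map_one]
  have hpg : IsPGroup r (Subgroup.zpowers u1) := by
    rw [IsPGroup.iff_orderOf]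
    rintro ⟨x, hx⟩
    obtain ⟨j, rfl⟩ := Subgroup.mem_zpowers_iff.1 hx
    have h1 : (⟨u1 ^ j, hx⟩ : Subgroup.zpowers u1) ^ r = 1 := by
      apply Subtype.ext
      show (u1 ^ j) ^ r = 1
      rw [← zpow_natCast, ← zpow_mul, mul_comm, zpow_mul, zpow_natCast, hu1r, one_zpow]
    rcases (Nat.dvd_prime hr.out).1 (orderOf_dvd_of_pow_eq_one h1) with h2 | h2
    · exact ⟨0, by rw [h2, pow_zero]⟩
    · exact ⟨1, by rw [h2, pow_one]⟩
  obtain ⟨Q, hQ⟩ := hpg.exists_le_sylow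
  obtain ⟨c, hc⟩ := MulAction.exists_smul_eq ↥(fixC f.α f.t) Q P
  have hcu : c * u1 * c⁻¹ ∈ (P : Subgroup ↥(fixC f.α f.t)) := by
    rw [← hc, Sylow.coe_subgroup_smul]
    exact ⟨u1, hQ (Subgroup.mem_zpowers u1), rfl⟩
  rw [hP, Subgroup.mem_subgroupOf] at hcu
  set v1 : Y4 r := ((c * u1 * c⁻¹ : ↥(fixC f.α f.t)) : Y4 r) with hv1
  have hv1e : v1 = (c : Y4 r) * (f.z⁻¹ * u * f.z) * (c : Y4 r)⁻¹ := rfl
  obtain ⟨hcα, hct⟩ := mem_fixC.1 c.2
  have hcσ : m.σ (f.z * c * f.z⁻¹) = f.z * c * f.z⁻¹ := (f.fix_iff' _).2 hcα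
  have hcs : f.z * c * f.z⁻¹ * s = s * (f.z * c * f.z⁻¹) := by
    rw [f.comm_iff]
    have e2 : f.z⁻¹ * (f.z * (c : Y4 r) * f.z⁻¹) * f.z = c := by group
    rw [e2]
    exact hct
  have hvn : f.z * v1 * f.z⁻¹ ∈ ncl m s u := by
    have e : f.z * v1 * f.z⁻¹ = (f.z * c * f.z⁻¹) * u * (f.z * c * f.z⁻¹)⁻¹ := by
      rw [hv1e]; group
    rw [e]
    exact ncl_conj m hcσ hcs (ncl_self m s u)
  have hv11 : v1 ≠ 1 := by
    intro h
    apply hu1
    have e : u = f.z * ((c : Y4 r)⁻¹ * v1 * c) * f.z⁻¹ := by rw [hv1e]; group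
    rw [e, h]
    group
  have hle := ncl_le m hvn
  have hvα : f.α v1 = v1 := (hcu : v1 ∈ PK _ _ _ _).2
  have hvS : v1 ∈ RGD.Sup (XX chevD4 4 (KK r)) (SP coxeterD4.toCoxeterSystem RGDTwD4.hp.isCartan (ch RGDTwD4.hp) f.t) :=
    (hcu : v1 ∈ PK _ _ _ _).1
  have hrt : ∀ {x}, x ∈ Sx coxeterD4.toCoxeterSystem RGDTwD4.hp.isCartan (ch RGDTwD4.hp) f.t →
      IsRoot coxeterD4.toCoxeterSystem RGDTwD4.hp.isCartan x := fun h => h.1
  have hneg : ∀ {b x : Fin 4 → ℤ}, IsRoot coxeterD4.toCoxeterSystem RGDTwD4.hp.isCartan b → 0 ≤ b → 0 ≤ x → x ≠ -b := by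
    rintro b x hb h0 hx rfl
    exact hb.not_pos_neg h0 (neg_nonneg.1 hx)
  have hfin : ∀ {b x}, IsRoot coxeterD4.toCoxeterSystem RGDTwD4.hp.isCartan b → f.θ b = b → x ∈ XX chevD4 4 (KK r) b →
      f.α x = x → x ≠ 1 → f.z * x * f.z⁻¹ ∈ ncl m s u → ∃ v ∈ ncl m s u, LR m v :=
    fun hb hθ hx hα h1 hn => ⟨_, hn, hL f hb hθ hx hα h1⟩
  rcases h4a hs1 f rfl with h | ⟨b, hb0, hθ, h⟩ | ⟨b, hb0, h33, h01, h12, h02, hspan, h⟩ | ⟨a, b, ha0, hb0, hab, hθ, h⟩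
  · exfalso
    apply hv11
    have h1 : RGD.Sup (XX chevD4 4 (KK r)) (SP coxeterD4.toCoxeterSystem RGDTwD4.hp.isCartan (ch RGDTwD4.hp) f.t) ≤ ⊥ :=
      RGD.Sup_le fun x hx => by
        have h2 : x ∈ Sx coxeterD4.toCoxeterSystem RGDTwD4.hp.isCartan (ch RGDTwD4.hp) f.t := hx.1
        rw [h] at h2
        exact absurd h2 (Set.notMem_empty x)
    exact Subgroup.mem_bot.1 (h1 hvS)
  · left
    have hb : IsRoot coxeterD4.toCoxeterSystem RGDTwD4.hp.isCartan b := hrt ((h b).2 (Or.inl rfl))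
    have h1 : RGD.Sup (XX chevD4 4 (KK r)) (SP coxeterD4.toCoxeterSystem RGDTwD4.hp.isCartan (ch RGDTwD4.hp) f.t) ≤
        XX chevD4 4 (KK r) b := RGD.Sup_le fun x hx => by
      rcases (h x).1 hx.1 with rfl | h2
      · exact le_rfl
      · exact absurd h2 (hneg hb hb0 hx.2)
    exact hfin hb hθ (h1 hvS) hvα hv11 hvn
  · have hbS : b ∈ Sx coxeterD4.toCoxeterSystem RGDTwD4.hp.isCartan (ch RGDTwD4.hp) f.t := by
      rcases h with h | ⟨c, -, -, -, -, -, h⟩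
      · exact (h b).2 (Or.inl rfl)
      · exact (h b).2 (Or.inr (Or.inr (Or.inl rfl)))
    have hb := hrt hbS
    have hb1 := hrt ((f.stab b).2 hbS)
    have hb2 := hrt ((f.stab _).2 ((f.stab b).2 hbS))
    have hp1 := f.pos b hbS hb0
    have hp2 := f.pos _ ((f.stab b).2 hbS) hp1
    rcases h with h | ⟨c', hc0, hθ, hbc, hbc1, hbc2, h⟩
    · right
      have h1 : RGD.Sup (XX chevD4 4 (KK r)) (SP coxeterD4.toCoxeterSystem RGDTwD4.hp.isCartan (ch RGDTwD4.hp) f.t) ≤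
          XX chevD4 4 (KK r) b ⊔ (XX chevD4 4 (KK r) (f.θ b) ⊔ XX chevD4 4 (KK r) (f.θ (f.θ b))) :=
        RGD.Sup_le fun x hx => by
          rcases (h x).1 hx.1 with rfl | rfl | rfl | h2 | h2 | h2
          · exact le_sup_left
          · exact le_sup_of_le_right le_sup_left
          · exact le_sup_of_le_right le_sup_right
          · exact absurd h2 (hneg hb hb0 hx.2)
          · exact absurd h2 (hneg hb1 hp1 hx.2)
          · exact absurd h2 (hneg hb2 hp2 hx.2)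
      obtain ⟨x0, hx0, w, hw, e⟩ := mem_sup_norm (fun a ha b' hb' => by
        have : (XX chevD4 4 (KK r) (f.θ b) ⊔ XX chevD4 4 (KK r) (f.θ (f.θ b))) ≤ Subgroup.centralizer {a} :=
          sup_le (fun y hy => Subgroup.mem_centralizer_singleton_iff.2 (comm_XX hb hb1 h01 (hneg hb hb0 hp1) ha hy).symm)
            (fun y hy => Subgroup.mem_centralizer_singleton_iff.2 (comm_XX hb hb2 h02 (hneg hb hb0 hp2) ha hy).symm)
        have h2 := Subgroup.mem_centralizer_singleton_iff.1 (this hb')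
        rw [← h2, mul_inv_cancel_right]
        exact hb') (h1 hvS)
      obtain ⟨x1, hx1, x2, hx2, rfl⟩ := mem_sup_norm (fun a ha b' hb' => by
        rw [comm_XX hb1 hb2 h12 (hneg hb1 hp1 hp2) ha hb', mul_inv_cancel_right]
        exact hb') hw
      have e' : v1 = x0 * x1 * x2 * 1 := by rw [e]; group
      obtain ⟨w, hw, h2⟩ := h3 hos f hb h33 h01 h12 h02 hspan hbS hx0 hx1 hx2 (Or.inl rfl) (by rw [← e', hvα])
        (by rw [mul_one] at e'; rw [← e']; exact hv11)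
      rw [← e'] at hw
      exact ⟨w, hle hw, h2⟩
    · have hcS : c' ∈ Sx coxeterD4.toCoxeterSystem RGDTwD4.hp.isCartan (ch RGDTwD4.hp) f.t := (h c').2 (Or.inl rfl)
      have hc' := hrt hcS
      have h1 : RGD.Sup (XX chevD4 4 (KK r)) (SP coxeterD4.toCoxeterSystem RGDTwD4.hp.isCartan (ch RGDTwD4.hp) f.t) ≤
          XX chevD4 4 (KK r) c' ⊔
          (XX chevD4 4 (KK r) b ⊔ (XX chevD4 4 (KK r) (f.θ b) ⊔ XX chevD4 4 (KK r) (f.θ (f.θ b)))) :=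
        RGD.Sup_le fun x hx => by
          rcases (h x).1 hx.1 with rfl | h2 | rfl | rfl | rfl | h2 | h2 | h2
          · exact le_sup_left
          · exact absurd h2 (hneg hc' hc0 hx.2)
          · exact le_sup_of_le_right le_sup_left
          · exact le_sup_of_le_right (le_sup_of_le_right le_sup_left)
          · exact le_sup_of_le_right (le_sup_of_le_right le_sup_right)
          · exact absurd h2 (hneg hb hb0 hx.2)
          · exact absurd h2 (hneg hb1 hp1 hx.2)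
          · exact absurd h2 (hneg hb2 hp2 hx.2)
      obtain ⟨y, hy, w, hw, e⟩ := mem_sup_norm (fun a ha b' hb' => by
        have : (XX chevD4 4 (KK r) b ⊔ (XX chevD4 4 (KK r) (f.θ b) ⊔ XX chevD4 4 (KK r) (f.θ (f.θ b)))) ≤
            Subgroup.centralizer {a} :=
          sup_le (fun y hy => Subgroup.mem_centralizer_singleton_iff.2 (comm_XX hb hc' hbc (hneg hb hb0 hc0) hy ha))
            (sup_le (fun y hy => Subgroup.mem_centralizer_singleton_iff.2 (comm_XX hb1 hc' hbc1 (hneg hb1 hp1 hc0) hy ha))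
            (fun y hy => Subgroup.mem_centralizer_singleton_iff.2 (comm_XX hb2 hc' hbc2 (hneg hb2 hp2 hc0) hy ha)))
        have h2 := Subgroup.mem_centralizer_singleton_iff.1 (this hb')
        rw [← h2, mul_inv_cancel_right]
        exact hb') (h1 hvS)
      obtain ⟨x0, hx0, w', hw', rfl⟩ := mem_sup_norm (fun a ha b' hb' => by
        have : (XX chevD4 4 (KK r) (f.θ b) ⊔ XX chevD4 4 (KK r) (f.θ (f.θ b))) ≤ Subgroup.centralizer {a} :=
          sup_le (fun y hy => Subgroup.mem_centralizer_singleton_iff.2 (comm_XX hb hb1 h01 (hneg hb hb0 hp1) ha hy).symm)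
            (fun y hy => Subgroup.mem_centralizer_singleton_iff.2 (comm_XX hb hb2 h02 (hneg hb hb0 hp2) ha hy).symm)
        have h2 := Subgroup.mem_centralizer_singleton_iff.1 (this hb')
        rw [← h2, mul_inv_cancel_right]
        exact hb') hw
      obtain ⟨x1, hx1, x2, hx2, rfl⟩ := mem_sup_norm (fun a ha b' hb' => by
        rw [comm_XX hb1 hb2 h12 (hneg hb1 hp1 hp2) ha hb', mul_inv_cancel_right]
        exact hb') hw'
      by_cases h1' : x0 * x1 * x2 = 1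
      · left
        have e' : v1 = y := by rw [e, ← mul_assoc x0, h1', mul_one]
        subst e'
        exact hfin hc' hθ hy hvα hv11 hvn
      · right
        have e' : v1 = x0 * x1 * x2 * y := by
          have k0 := comm_XX hb hc' hbc (hneg hb hb0 hc0) hx0 hy
          have k1 := comm_XX hb1 hc' hbc1 (hneg hb1 hp1 hc0) hx1 hy
          have k2 := comm_XX hb2 hc' hbc2 (hneg hb2 hp2 hc0) hx2 hy
          calc v1 = (y * x0) * (x1 * x2) := by rw [e]; group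
            _ = x0 * (y * x1) * x2 := by rw [← k0]; group
            _ = x0 * x1 * (y * x2) := by rw [← k1]; group
            _ = _ := by rw [← k2]; group
        obtain ⟨w, hw, h2⟩ := h3 hos f hb h33 h01 h12 h02 hspan hbS hx0 hx1 hx2
          (Or.inr ⟨c', hc', hθ, hbc, hbc1, hbc2, hy⟩) (by rw [← e', hvα]) h1'
        rw [← e'] at hw
        exact ⟨w, hle hw, h2⟩
  · left
    have haS : a ∈ Sx coxeterD4.toCoxeterSystem RGDTwD4.hp.isCartan (ch RGDTwD4.hp) f.t := (h a).2 (Or.inl rfl)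
    have hbS : b ∈ Sx coxeterD4.toCoxeterSystem RGDTwD4.hp.isCartan (ch RGDTwD4.hp) f.t := (h b).2 (Or.inr (Or.inl rfl))
    have ha := hrt haS
    have hb := hrt hbS
    have h1 : RGD.Sup (XX chevD4 4 (KK r)) (SP coxeterD4.toCoxeterSystem RGDTwD4.hp.isCartan (ch RGDTwD4.hp) f.t) ≤
        XX chevD4 4 (KK r) a ⊔ (XX chevD4 4 (KK r) b ⊔ XX chevD4 4 (KK r) (a + b)) :=
      RGD.Sup_le fun x hx => by
        rcases (h x).1 hx.1 with rfl | rfl | rfl | h2 | h2 | h2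
        · exact le_sup_left
        · exact le_sup_of_le_right le_sup_left
        · exact le_sup_of_le_right le_sup_right
        · exact absurd h2 (hneg ha ha0 hx.2)
        · exact absurd h2 (hneg hb hb0 hx.2)
        · exact absurd h2 (hneg hab (add_nonneg ha0 hb0) hx.2)
    obtain ⟨x0, hx0, w, hw, e⟩ := mem_sup_norm (fun a' ha' b' hb' => by
      obtain ⟨x1, hx1, x2, hx2, rfl⟩ := mem_sup_norm (fun x hx y hy => by
        rw [((conj_XX ha hb hab ha' hx).2 y hy).2, mul_inv_cancel_right]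
        exact hy) hb'
      obtain ⟨⟨z', hz', e1⟩, h2⟩ := conj_XX ha hb hab ha' hx1
      have e3 : a' * (x1 * x2) * a'⁻¹ = x1 * (z' * x2) := by
        calc a' * (x1 * x2) * a'⁻¹ = (a' * x1 * a'⁻¹) * (a' * x2 * a'⁻¹) := by group
          _ = x1 * z' * x2 := by rw [e1, (h2 x2 hx2).1, mul_inv_cancel_right]
          _ = _ := by group
      rw [e3]
      exact mul_mem (Subgroup.mem_sup_left hx1) (Subgroup.mem_sup_right (mul_mem hz' hx2))) (h1 hvS)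
    obtain ⟨x1, hx1, x2, hx2, rfl⟩ := mem_sup_norm (fun x hx y hy => by
      rw [((conj_XX ha hb hab hx0 hx).2 y hy).2, mul_inv_cancel_right]
      exact hy) hw
    have e' : v1 = x0 * x1 * x2 := by rw [e]; group
    obtain ⟨v, hv, hv1', x, hx, hxα, rfl⟩ := Cfsg.Agent.H188.TD.ncl_A2 m f ha hb hab hθ hx0 hx1 hx2
      (by rw [← e']; exact hv11) (by rw [← e', hvα]) haS hbS
    rw [← e'] at hv
    refine ⟨_, hle hv, hL f hab ?_ hx hxα ?_⟩
    · rw [map_add]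
      rcases hθ with ⟨k1, k2⟩ | ⟨k1, k2⟩
      · rw [k1, k2]
      · rw [k1, k2, add_comm]
    · rintro rfl
      apply hv1'
      group

end

end Cfsg.Agent.H39.TD
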